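import Cfsg.Agent.S5788
import Cfsg.Agent.S0245
import Cfsg.Agent.S0246
import Cfsg.Agent.H419.EP.Soc
import Cfsg.Agent.H419.EP.Targets
import Cfsg.Agent.H729.EPM.PSp
import Cfsg.Agent.H895.SLT.ResCard
import Cfsg.Agent.StandardComponent.AltAut

/-!
# S3499, layer IV, the row `PSp₄(q)`, `q` odd, residual class (helper142)

`row_of`: from S5788, the model and hypotheses for the socles `A₆`, `A₇`, `L₂(q)`; `a6_of_index`, `a7_of_index` reduce the
first two to index bounds.
-/

set_option autoImplicit false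

namespace Cfsg.Agent.H142.EPIV

open Cfsg Subgroup Cfsg.Agent.H284 Cfsg.Agent.H419.EP
open scoped MatrixGroups

/-- the order of `Q` from the model -/
theorem card_eq_psp {Q : Type*} [Group Q] {F : Type*} [Field F] {k : ℕ} (m : Model Q (Cfsg.spGL k F)) :
    Nat.card Q = Nat.card (Cfsg.PSp k F) := by
  have m' := Cfsg.Agent.H729.EPM.modelPSp k F
  have hk : m.π.ker = m'.π.ker := by
    ext s
    rw [MonoidHom.mem_ker, MonoidHom.mem_ker, m.ker, m'.ker]
  exact Nat.card_congr ((QuotientGroup.quotientKerEquivOfSurjective m.π m.surj).symm.trans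
    ((QuotientGroup.quotientMulEquivOfEq hk).trans (QuotientGroup.quotientKerEquivOfSurjective m'.π m'.surj))).toEquiv

/-- `2 |PSp₄(q)| = q⁴ (q² - 1) (q⁴ - 1)` for odd `q` -/
theorem card_psp4 {F : Type*} [Field F] [Fintype F] (ho : Odd (Fintype.card F)) :
    2 * Nat.card (Cfsg.PSp 2 F) =
      Fintype.card F ^ 4 * ((Fintype.card F ^ 2 - 1) * (Fintype.card F ^ 4 - 1)) := by
  have h1 := S0245.result (F := F) rfl 2
  have h2 := S0246.result (F := F) rfl 2 (by norm_num)
  have h3 := Subgroup.card_eq_card_quotient_mul_card_subgroup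
    (Subgroup.center (Matrix.symplecticGroup (Fin 2) F))
  have h4 : Nat.gcd 2 (Fintype.card F - 1) = 2 := by
    apply Nat.gcd_eq_left
    obtain ⟨k, hk⟩ := ho
    omega
  rw [h1, h2, h4, Finset.prod_range_succ, Finset.prod_range_one] at h3
  rw [mul_comm]
  exact h3.symm

theorem card_psp4_seven {F : Type*} [Field F] [Fintype F] (hF : Fintype.card F = 7) :
    Nat.card (Cfsg.PSp 2 F) = 138297600 := by
  have h := card_psp4 (F := F) (by rw [hF]; decide)
  rw [hF] at h
  norm_num at h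
  omega

theorem card_psp4_ge {F : Type*} [Field F] [Fintype F] (ho : Odd (Fintype.card F)) (hq : 5 ≤ Fintype.card F) :
    4680000 ≤ Nat.card (Cfsg.PSp 2 F) := by
  have h := card_psp4 ho
  have h1 : 5 ^ 4 * ((5 ^ 2 - 1) * (5 ^ 4 - 1)) ≤
      Fintype.card F ^ 4 * ((Fintype.card F ^ 2 - 1) * (Fintype.card F ^ 4 - 1)) :=
    Nat.mul_le_mul (Nat.pow_le_pow_left hq 4) (Nat.mul_le_mul (Nat.sub_le_sub_right (Nat.pow_le_pow_left hq 2) 1)
      (Nat.sub_le_sub_right (Nat.pow_le_pow_left hq 4) 1))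
  norm_num at h1
  omega

/-- the index bound from the socle -/
theorem index_ge {Q : Type*} [Group Q] [Finite Q] {A : Subgroup Q} {L : Type*} [Group L] [Finite L] (h : HasSoc A L)
    {c : ℕ} (hL : Nat.card (MulAut L) ≤ c) : Nat.card Q ≤ c * A.index := by
  rw [← A.card_mul_index]
  exact Nat.mul_le_mul_right _ (h.card_le.trans hL)

theorem card_aut_a7 : Nat.card (MulAut (alternatingGroup (Fin 7))) ≤ 5040 := by
  obtain ⟨ψ, hψ⟩ := Cfsg.Agent.StandardComponent.AltAut.exists_autHom 7 le_rfl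
  have hinj : Function.Injective ψ := by
    rw [injective_iff_map_eq_one]
    intro e he
    ext x : 2
    rw [hψ, he]
    simp
  have h1 : Nat.card (MulAut (alternatingGroup (Fin 7))) ≤ Nat.card (Equiv.Perm (Fin 7)) :=
    Nat.card_le_card_of_injective ψ hinj
  rw [Nat.card_eq_fintype_card (α := Equiv.Perm (Fin 7)), Fintype.card_perm, Fintype.card_fin] at h1
  exact h1

/-- **The row `PSp₄(q)`, `q` odd, residual class.** -/
theorem row_of {Q : Type*} [Group Q] [Finite Q] {A : Subgroup Q} {Γ : Subgroup (MulAut Q)}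
    (h : EPT A Γ) {F : Type*} [Field F] [Fintype F] (m : Model Q (Cfsg.spGL 2 F))
    (ho : Odd (Fintype.card F)) (hres : Cfsg.Geo.InSymplecticResidualClass (m.hat A))
    (A6 : HasSoc A (alternatingGroup (Fin 6)) → 4680000 ≤ Nat.card Q → False)
    (A7 : HasSoc A (alternatingGroup (Fin 7)) → Nat.card Q = 138297600 → False)
    (own : ∀ (P : Subgroup (GL (Fin 2 ⊕ Fin 2) F)) (p : ℕ), Cfsg.Geo.IsResidualCore (m.hat A) P → p.Prime → CharP F p →
      5 ≤ p → 7 < Fintype.card F → Nonempty ((P ⧸ (Cfsg.Geo.scalars (Fin 2 ⊕ Fin 2) F).subgroupOf P) ≃*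
        Matrix.ProjectiveSpecialLinearGroup (Fin 2) F) → False) : False := by
  have hc : Nat.card Q = Nat.card (Cfsg.PSp 2 F) := card_eq_psp m
  obtain ⟨P, p, hP, hp, hpF, h1⟩ := Cfsg.Agent.S5788.result ho (m.hat A) (m.isMaximalIn h.max) hres
  have hs := hasSoc_of_core m hP
  rcases h1 with ⟨⟨f⟩, h5, h7, _⟩ | ⟨⟨f⟩, h7⟩ | ⟨⟨f⟩, h5, h7⟩
  · exact A6 (hs.congr f) (by
      rw [hc]
      exact card_psp4_ge ho (by rw [h5]; exact h7))
  · exact A7 (hs.congr f) (by rw [hc, card_psp4_seven h7])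
  · exact own P p hP hp hpF h5 h7 ⟨f⟩

/-- `A₆` from an index bound -/
theorem a6_of_index {Q : Type*} [Group Q] [Finite Q] {A : Subgroup Q}
    (hs : HasSoc A (alternatingGroup (Fin 6))) (hi : A.index < 3250) (hQ : 4680000 ≤ Nat.card Q) : False := by
  have h1 := index_ge hs (c := 1440) Cfsg.Agent.H895.SLT.card_aut_a6.le
  omega

/-- `A₇` from an index bound -/
theorem a7_of_index {Q : Type*} [Group Q] [Finite Q] {A : Subgroup Q}
    (hs : HasSoc A (alternatingGroup (Fin 7))) (hi : A.index < 27440) (hQ : Nat.card Q = 138297600) : False := by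
  have h1 := index_ge hs (c := 5040) card_aut_a7
  omega

end Cfsg.Agent.H142.EPIV
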